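import Cfsg.Agent.H325.IF.Inv3
import Cfsg.Agent.H209.IF.Defs

/-!
# S5719, `Ω₈⁻(q)`, `q` odd: geometry of the assembly (helper893)

* `comm_rhoE`, `swap_comm`, `sq_one_SL`;
* `Vm_fund` : the `-1`-space of a fundamental involution; `eq_of_Vm`;
* `cent_case` : an involution of rank four commuting with a long `SL₂` of `z` is `z`;
* `main` : the homomorphism `φ` of helper215's theorem and its properties.
-/

set_option autoImplicit false
set_option linter.unusedSectionVars false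
set_option linter.unusedVariables false
set_option linter.unusedSimpArgs false

namespace Cfsg.Agent.H893.IFE

open QuadraticMap Module Cfsg.Agent.LieClassical Cfsg.Agent.LieClassical.OrthCore Cfsg.Agent.LieClassical.OrthTrans
  Cfsg.Agent.LieClassical.OrthSimple Cfsg.Agent.H989.Gs.Gen Cfsg.Agent.H989.Fx Cfsg.Agent.H325.IF
  Cfsg.Agent.H160.QSpin Cfsg.Agent.H160.QDisc
open Cfsg.Agent.UGT.U2.FOne.Orth (Four)
open Matrix (SpecialLinearGroup)

universe u v

variable {F : Type u} [Field F] {V : Type v} [AddCommGroup V] [Module F V] {Q : QuadraticForm F V}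
  {e₁ f₁ e₂ f₂ : V}

/-! ### `SL₂` -/

theorem sq_one_SL (h2 : (2 : F) ≠ 0) {N : SpecialLinearGroup (Fin 2) F} (hN : N * N = 1) : N = 1 ∨ N = -1 := by
  have hMM : N.1 * N.1 = 1 := congrArg Subtype.val hN
  have hdet : N.1 0 0 * N.1 1 1 - N.1 0 1 * N.1 1 0 = 1 := by
    have := N.2
    rwa [Matrix.det_fin_two] at this
  have e00 : N.1 0 0 * N.1 0 0 + N.1 0 1 * N.1 1 0 = 1 := by
    have := congrFun (congrFun hMM 0) 0
    simpa [Matrix.mul_apply, Fin.sum_univ_two] using this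
  have e01 : N.1 0 0 * N.1 0 1 + N.1 0 1 * N.1 1 1 = 0 := by
    have := congrFun (congrFun hMM 0) 1
    simpa [Matrix.mul_apply, Fin.sum_univ_two] using this
  have e10 : N.1 1 0 * N.1 0 0 + N.1 1 1 * N.1 1 0 = 0 := by
    have := congrFun (congrFun hMM 1) 0
    simpa [Matrix.mul_apply, Fin.sum_univ_two] using this
  have e11 : N.1 1 0 * N.1 0 1 + N.1 1 1 * N.1 1 1 = 1 := by
    have := congrFun (congrFun hMM 1) 1
    simpa [Matrix.mul_apply, Fin.sum_univ_two] using this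
  have t0 : N.1 0 0 * (N.1 0 0 + N.1 1 1) = 2 := by linear_combination e00 + hdet
  have t1 : N.1 1 1 * (N.1 0 0 + N.1 1 1) = 2 := by linear_combination e11 + hdet
  have ht : N.1 0 0 + N.1 1 1 ≠ 0 := by
    intro h0
    rw [h0, mul_zero] at t0
    exact h2 t0.symm
  have m01 : N.1 0 1 = 0 :=
    (mul_eq_zero.1 (show N.1 0 1 * (N.1 0 0 + N.1 1 1) = 0 by linear_combination e01)).resolve_right ht
  have m10 : N.1 1 0 = 0 :=
    (mul_eq_zero.1 (show N.1 1 0 * (N.1 0 0 + N.1 1 1) = 0 by linear_combination e10)).resolve_right ht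
  have m0011 : N.1 0 0 = N.1 1 1 := mul_right_cancel₀ ht (t0.trans t1.symm)
  rw [m01, zero_mul, add_zero] at e00
  rcases mul_self_eq_one_iff.1 e00 with h5 | h5
  · left
    apply Subtype.ext
    ext i j
    fin_cases i <;> fin_cases j
    · simpa using h5
    · simpa using m01
    · simpa using m10
    · simpa using (m0011 ▸ h5)
  · right
    apply Subtype.ext
    ext i j
    fin_cases i <;> fin_cases j
    · simpa using h5
    · simpa using m01
    · simpa using m10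
    · simpa using (m0011 ▸ h5)

/-! ### the long `SL₂` -/

/-- An element fixing the four vectors commutes with the long `SL₂`. -/
theorem comm_rhoE (h : Four Q e₁ f₁ e₂ f₂) {a : ↥(E Q)} (h1 : ap a e₁ = e₁) (h2 : ap a f₁ = f₁) (h3 : ap a e₂ = e₂)
    (h4 : ap a f₂ = f₂) (M : SpecialLinearGroup (Fin 2) F) : a * h.rhoE M = h.rhoE M * a := by
  apply ext_ap
  intro v
  have k : ∀ x, ap a x = x → polar Q x (ap a v) = polar Q x v := by
    intro x hx
    conv_lhs => rw [← hx]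
    exact polar_ap a x v
  change ap a (h.phi M v) = h.phi M (ap a v)
  unfold Four.phi
  rw [k _ h1, k _ h2, k _ h3, k _ h4]
  simp only [ap_add, ap_smul, h1, h2, h3, h4]

theorem swap_comm (h : Four Q e₁ f₁ e₂ f₂) (M N : SpecialLinearGroup (Fin 2) F) :
    h.rhoE M * h.swap.rhoE N = h.swap.rhoE N * h.rhoE M := by
  apply ext_ap
  intro v
  change h.phi M (h.swap.phi N v) = h.swap.phi N (h.phi M v)
  have key : ∀ w : V, h.phi M w = w + ((M.1 0 0 - 1) * polar Q f₁ w + M.1 0 1 * polar Q f₂ w) • e₁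
    + (M.1 1 0 * polar Q f₁ w + (M.1 1 1 - 1) * polar Q f₂ w) • e₂
    + ((M.1 1 1 - 1) * polar Q e₁ w - M.1 1 0 * polar Q e₂ w) • f₁
    + (-M.1 0 1 * polar Q e₁ w + (M.1 0 0 - 1) * polar Q e₂ w) • f₂ := fun w => rfl
  have key' : ∀ w : V, h.swap.phi N w = w + ((N.1 0 0 - 1) * polar Q f₁ w + N.1 0 1 * polar Q e₂ w) • e₁
    + (N.1 1 0 * polar Q f₁ w + (N.1 1 1 - 1) * polar Q e₂ w) • f₂
    + ((N.1 1 1 - 1) * polar Q e₁ w - N.1 1 0 * polar Q f₂ w) • f₁
    + (-N.1 0 1 * polar Q e₁ w + (N.1 0 0 - 1) * polar Q f₂ w) • e₂ := fun w => rfl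
  rw [key (h.swap.phi N v), key' (h.phi M v), h.swap.polar_f1, h.swap.polar_f2, h.swap.polar_e1, h.swap.polar_e2,
    h.polar_f1, h.polar_f2, h.polar_e1, h.polar_e2, key v, key' v]
  module

/-- the two long `SL₂` share only scalars -/
theorem scalar_of_eq (h : Four Q e₁ f₁ e₂ f₂) {M N : SpecialLinearGroup (Fin 2) F} (hMN : h.rhoE M = h.swap.rhoE N) :
    M * M = 1 := by
  obtain ⟨p1, p2, p3, p4, p5, p6, p7, p8, p9, p10, p11, p12, p13, p14, p15, p16⟩ := h.pols
  have k1 : M.1 0 0 • e₁ + M.1 1 0 • e₂ = N.1 0 0 • e₁ + N.1 1 0 • f₂ := by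
    rw [← h.rho_e1, ← h.swap.rho_e1]
    exact congrArg (fun g : ↥(E Q) => ap g e₁) hMN
  have k2 : M.1 0 1 • e₁ + M.1 1 1 • e₂ = (-N.1 1 0) • f₁ + N.1 0 0 • e₂ := by
    rw [← h.rho_e2, ← h.swap.rho_f2]
    exact congrArg (fun g : ↥(E Q) => ap g e₂) hMN
  have m10 : M.1 1 0 = 0 := by
    have := congrArg (polar Q f₂) k1
    simp only [polar_add_right, polar_smul_right, smul_eq_mul, p12, p8, p4, mul_zero, mul_one, zero_add, add_zero] at this
    exact this
  have m00 : M.1 0 0 = N.1 0 0 := by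
    have := congrArg (polar Q f₁) k1
    simp only [polar_add_right, polar_smul_right, smul_eq_mul, p6, p13, p15, mul_zero, mul_one, zero_add, add_zero] at this
    exact this
  have m01 : M.1 0 1 = 0 := by
    have := congrArg (polar Q f₁) k2
    simp only [polar_add_right, polar_smul_right, smul_eq_mul, p6, p13, p2, mul_zero, mul_one, zero_add, add_zero] at this
    exact this
  have m11 : M.1 1 1 = N.1 0 0 := by
    have := congrArg (polar Q f₂) k2
    simp only [polar_add_right, polar_smul_right, smul_eq_mul, p12, p8, p16, mul_zero, mul_one, zero_add, add_zero] at this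
    exact this
  have hdet : M.1 0 0 * M.1 1 1 - M.1 0 1 * M.1 1 0 = 1 := by
    have := M.2
    rwa [Matrix.det_fin_two] at this
  rw [m01, m10, m00, m11] at hdet
  have hsq : N.1 0 0 * N.1 0 0 = 1 := by linear_combination hdet
  apply Subtype.ext
  change M.1 * M.1 = 1
  ext i j
  fin_cases i <;> fin_cases j
  · simp [Matrix.mul_apply, Fin.sum_univ_two, m01, m10, m00, m11, hsq]
  · simp [Matrix.mul_apply, Fin.sum_univ_two, m01, m10, m00, m11, hsq]
  · simp [Matrix.mul_apply, Fin.sum_univ_two, m01, m10, m00, m11, hsq]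
  · simp [Matrix.mul_apply, Fin.sum_univ_two, m01, m10, m00, m11, hsq]

/-! ### `-1`-spaces -/

/-- the space of the frame -/
def Wsp (e₁ f₁ e₂ f₂ : V) : Submodule F V := Submodule.span F (Set.range ![e₁, f₁, e₂, f₂])

theorem mem_Wsp {v : V} : v ∈ Wsp (F := F) e₁ f₁ e₂ f₂ ↔ ∃ a b c d : F, a • e₁ + b • f₁ + c • e₂ + d • f₂ = v := by
  rw [Wsp, Submodule.mem_span_range_iff_exists_fun]
  constructor
  · rintro ⟨c, hc⟩
    refine ⟨c 0, c 1, c 2, c 3, ?_⟩
    rw [← hc, Fin.sum_univ_four]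
    rfl
  · rintro ⟨a, b, c, d, hv⟩
    refine ⟨![a, b, c, d], ?_⟩
    rw [← hv, Fin.sum_univ_four]
    rfl

theorem finrank_Wsp (h : Four Q e₁ f₁ e₂ f₂) : finrank F (Wsp (F := F) e₁ f₁ e₂ f₂) = 4 := by
  obtain ⟨p1, p2, p3, p4, p5, p6, p7, p8, p9, p10, p11, p12, p13, p14, p15, p16⟩ := h.pols
  have hli : LinearIndependent F ![e₁, f₁, e₂, f₂] := by
    rw [Fintype.linearIndependent_iff]
    intro c hc
    rw [Fin.sum_univ_four] at hc
    change c 0 • e₁ + c 1 • f₁ + c 2 • e₂ + c 3 • f₂ = 0 at hc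
    have k0 := congrArg (polar Q f₁) hc
    have k1 := congrArg (polar Q e₁) hc
    have k2 := congrArg (polar Q f₂) hc
    have k3 := congrArg (polar Q e₂) hc
    simp only [polar_add_right, polar_smul_right, smul_eq_mul, polar_zero_right, p1, p2, p3, p4, p5, p6, p7, p8, p9,
      p10, p11, p12, p13, p14, p15, p16, mul_zero, mul_one, zero_add, add_zero] at k0 k1 k2 k3
    intro i
    fin_cases i
    · exact k0
    · exact k1
    · exact k2
    · exact k3
  rw [Wsp, finrank_span_eq_card hli]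
  rfl

/-- `-1`-space of a fundamental involution -/
theorem Vm_frame (h2 : (2 : F) ≠ 0) {z : ↥(E Q)} (h : Four Q e₁ f₁ e₂ f₂) (h1 : ap z e₁ = -e₁)
    (h2' : ap z f₁ = -f₁) (h3 : ap z e₂ = -e₂) (h4 : ap z f₂ = -f₂)
    (h5 : ∀ v, polar Q e₁ v = 0 → polar Q f₁ v = 0 → polar Q e₂ v = 0 → polar Q f₂ v = 0 → ap z v = v) :
    Vm z = Wsp e₁ f₁ e₂ f₂ := by
  apply le_antisymm
  · intro v hv
    rw [mem_Vm, fund_ap h h1 h2' h3 h4 h5 v] at hv
    rw [mem_Wsp]
    refine ⟨polar Q f₁ v, polar Q e₁ v, polar Q f₂ v, polar Q e₂ v, ?_⟩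
    have h6 : (2 : F) • (v - (polar Q f₁ v • e₁ + polar Q e₁ v • f₁ + (polar Q f₂ v • e₂ + polar Q e₂ v • f₂))) = 0 := by
      rw [smul_sub, two_smul F v]
      have h7 : v = -(v - (2 : F) • (polar Q f₁ v • e₁ + polar Q e₁ v • f₁ + (polar Q f₂ v • e₂ + polar Q e₂ v • f₂))) := by
        rw [hv, neg_neg]
      nth_rewrite 2 [h7]
      abel
    have h7 := sub_eq_zero.1 ((smul_eq_zero.1 h6).resolve_left h2)
    nth_rewrite 5 [h7]
    abel
  · intro v hv
    rw [mem_Wsp] at hv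
    obtain ⟨a, b, c, d, rfl⟩ := hv
    rw [mem_Vm]
    simp only [ap_add, ap_smul, h1, h2', h3, h4]
    module

theorem rhoE_neg_e1 (h : Four Q e₁ f₁ e₂ f₂) : ap (h.rhoE (-1)) e₁ = -e₁ := by
  change h.rho (-1) e₁ = _
  rw [h.rho_e1]
  simp

theorem rhoE_neg_f1 (h : Four Q e₁ f₁ e₂ f₂) : ap (h.rhoE (-1)) f₁ = -f₁ := by
  change h.rho (-1) f₁ = _
  rw [h.rho_f1]
  simp

theorem rhoE_neg_e2 (h : Four Q e₁ f₁ e₂ f₂) : ap (h.rhoE (-1)) e₂ = -e₂ := by
  change h.rho (-1) e₂ = _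
  rw [h.rho_e2]
  simp

theorem rhoE_neg_f2 (h : Four Q e₁ f₁ e₂ f₂) : ap (h.rhoE (-1)) f₂ = -f₂ := by
  change h.rho (-1) f₂ = _
  rw [h.rho_f2]
  simp

theorem rhoE_fix (h : Four Q e₁ f₁ e₂ f₂) (M : SpecialLinearGroup (Fin 2) F) {v : V} (k1 : polar Q e₁ v = 0)
    (k2 : polar Q f₁ v = 0) (k3 : polar Q e₂ v = 0) (k4 : polar Q f₂ v = 0) : ap (h.rhoE M) v = v := by
  change h.phi M v = v
  unfold Four.phi
  rw [k1, k2, k3, k4]
  module

/-- `z = ρ(-1)` -/
theorem eq_rhoE_neg {z : ↥(E Q)} (h : Four Q e₁ f₁ e₂ f₂) (h1 : ap z e₁ = -e₁)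
    (h2' : ap z f₁ = -f₁) (h3 : ap z e₂ = -e₂) (h4 : ap z f₂ = -f₂)
    (h5 : ∀ v, polar Q e₁ v = 0 → polar Q f₁ v = 0 → polar Q e₂ v = 0 → polar Q f₂ v = 0 → ap z v = v) :
    z = h.rhoE (-1) := by
  apply ext_ap
  intro v
  rw [fund_ap h h1 h2' h3 h4 h5 v, fund_ap h (rhoE_neg_e1 h) (rhoE_neg_f1 h) (rhoE_neg_e2 h) (rhoE_neg_f2 h)
    (fun w k1 k2 k3 k4 => rhoE_fix h (-1) k1 k2 k3 k4) v]

theorem eq_of_Vm (h2 : (2 : F) ≠ 0) (hQ : Nondeg Q) {g g' : ↥(E Q)} (hg : g * g = 1) (hg' : g' * g' = 1)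
    (h : Vm g = Vm g') : g = g' := by
  apply ext_ap
  intro v
  obtain ⟨a, ha, b, hb, rfl⟩ := Submodule.mem_sup.1 (((isCompl h2 hg).codisjoint.eq_top).symm ▸
    Submodule.mem_top : v ∈ Vm g ⊔ Vp g)
  have ha' : a ∈ Vm g' := h ▸ ha
  have hb' : b ∈ Vp g' := by
    rw [mem_Vp_iff h2 hQ hg', ← h, ← mem_Vp_iff h2 hQ hg]
    exact hb
  rw [ap_add, ap_add, mem_Vm.1 ha, mem_Vp.1 hb, mem_Vm.1 ha', mem_Vp.1 hb']

/-! ### `-1` -/

/-- `-1 ∉ Ω` if the discriminant is not a square -/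
theorem neg_notMem [Finite F] [Fintype F] [DecidableEq F] [FiniteDimensional F V] (h2 : (2 : F) ≠ 0) (hG : Good Q)
    (hdc : dc Q = -1) (g : ↥(E Q)) : ¬ ∀ v, ap g v = -v := by
  intro h
  have hg : g * g = 1 := by
    apply ext_ap
    intro v
    rw [ap_mul, h, h, neg_neg, ap_one]
  have h3 := dc_Vp h2 hg hG
  have h4 : Vp g = ⊥ := by
    rw [eq_bot_iff]
    intro v hv
    rw [mem_Vp, h] at hv
    rw [Submodule.mem_bot]
    have h5 : (2 : F) • v = 0 := by
      rw [two_smul]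
      nth_rewrite 1 [← hv]
      exact neg_add_cancel v
    exact (smul_eq_zero.1 h5).resolve_left h2
  have h5 : finrank F (Vp g) = 0 := by rw [h4, finrank_bot]
  have h6 : dc (Q.comp (Vp g).subtype) = 1 := by
    unfold dc
    rw [gdet_of_zero _ h5, map_one]
  rw [h6, hdc] at h3
  exact absurd h3 (by norm_num)

section eight

variable [Finite F] [FiniteDimensional F V] (h2 : (2 : F) ≠ 0) (hG : Good Q) (hN : finrank F V = 8)
  (hm : ∀ g : ↥(E Q), ¬ ∀ v, ap g v = -v)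

include h2 hG hN hm

/-- rank of an involution -/
theorem rank_cases {t : ↥(E Q)} (ht : t * t = 1) (ht1 : t ≠ 1) :
    finrank F (Vm t) = 2 ∨ finrank F (Vm t) = 6 ∨ (finrank F (Vm t) = 4 ∧ Fund Q t) := by
  obtain ⟨k, hk⟩ := even_Vm h2 ht hG
  have h3 := Submodule.finrank_add_eq_of_isCompl (isCompl h2 ht)
  have h0 : finrank F (Vm t) ≠ 0 := by
    intro h
    apply ht1
    rw [Submodule.finrank_eq_zero] at h
    have h4 := (isCompl h2 ht).codisjoint.eq_top
    rw [h, bot_sup_eq] at h4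
    apply ext_ap
    intro v
    rw [ap_one]
    have : v ∈ Vp t := by rw [h4]; trivial
    exact mem_Vp.1 this
  have h8 : finrank F (Vm t) ≠ 8 := by
    intro h
    apply hm t
    intro v
    have : Vm t = ⊤ := Submodule.eq_top_of_finrank_eq (by rw [h, hN])
    have h4 : v ∈ Vm t := by rw [this]; trivial
    exact mem_Vm.1 h4
  have h7 : finrank F (Vm t) = 2 ∨ finrank F (Vm t) = 6 ∨ finrank F (Vm t) = 4 := by omega
  rcases h7 with h7 | h7 | h7
  · exact Or.inl h7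
  · exact Or.inr (Or.inl h7)
  · exact Or.inr (Or.inr ⟨h7, fund_of_finrank h2 hG ht h7⟩)

/-- an involution of rank four trivial on the frame of `z`: impossible -/
theorem not_trivial (h : Four Q e₁ f₁ e₂ f₂) {t : ↥(E Q)} (ht : t * t = 1) (hr : finrank F (Vm t) = 4)
    (k1 : ap t e₁ = e₁) (k2 : ap t f₁ = f₁) (k3 : ap t e₂ = e₂) (k4 : ap t f₂ = f₂) : False := by
  have hW : Wsp e₁ f₁ e₂ f₂ ≤ Vp t := by
    intro v hv
    rw [mem_Wsp] at hv
    obtain ⟨a, b, c, d, rfl⟩ := hv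
    rw [mem_Vp]
    simp only [ap_add, ap_smul, k1, k2, k3, k4]
  have h3 := Submodule.finrank_add_eq_of_isCompl (isCompl h2 ht)
  have h4 : Wsp e₁ f₁ e₂ f₂ = Vp t := Submodule.eq_of_le_of_finrank_eq hW (by rw [finrank_Wsp h]; omega)
  apply hm (t * h.rhoE (-1))
  intro v
  obtain ⟨a, ha, b, hb, rfl⟩ := Submodule.mem_sup.1 (((isCompl h2 ht).codisjoint.eq_top).symm ▸
    Submodule.mem_top : v ∈ Vm t ⊔ Vp t)
  have hz := Vm_frame h2 h (rhoE_neg_e1 h) (rhoE_neg_f1 h) (rhoE_neg_e2 h) (rhoE_neg_f2 h)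
    (fun w k1 k2 k3 k4 => rhoE_fix h (-1) k1 k2 k3 k4)
  have hzz : h.rhoE (-1) * h.rhoE (-1) = 1 := by
    rw [← map_mul, neg_one_mul, neg_neg, map_one]
  have hb1 : ap (h.rhoE (-1)) b = -b := by
    rw [← mem_Vm, hz, h4]
    exact hb
  have ha1 : ap (h.rhoE (-1)) a = a := by
    rw [← mem_Vp, mem_Vp_iff h2 hG.nondeg hzz, hz, h4]
    intro u hu
    rw [polar_comm]
    exact polar_Vm_Vp h2 ha hu
  rw [ap_mul, ap_add, ha1, hb1, ap_add, ap_neg, mem_Vm.1 ha, mem_Vp.1 hb, neg_add]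

/-- an involution of rank four acting as a member of the swapped `SL₂` on the frame of `z` is `z` -/
theorem eq_of_swap (h : Four Q e₁ f₁ e₂ f₂) {t : ↥(E Q)} (ht : t * t = 1) (hr : finrank F (Vm t) = 4)
    (N : SpecialLinearGroup (Fin 2) F) (hN' : ∀ w ∈ ({e₁, f₁, e₂, f₂} : Set V), ap ((h.swap.rhoE N)⁻¹ * t) w = w) :
    t = h.rhoE (-1) := by
  have key : ∀ w ∈ ({e₁, f₁, e₂, f₂} : Set V), ap t w = ap (h.swap.rhoE N) w := by
    intro w hw
    have h3 := hN' w hw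
    rw [ap_mul] at h3
    have h4 := congrArg (ap (h.swap.rhoE N)) h3
    rwa [ap_ap_inv] at h4
  have c1 : ap t e₁ = N.1 0 0 • e₁ + N.1 1 0 • f₂ := by
    rw [key e₁ (by simp)]
    exact h.swap.rho_e1 N
  have c2 : ap t f₂ = N.1 0 1 • e₁ + N.1 1 1 • f₂ := by
    rw [key f₂ (by simp)]
    exact h.swap.rho_e2 N
  have c3 : ap t f₁ = N.1 1 1 • f₁ + (-N.1 0 1) • e₂ := by
    rw [key f₁ (by simp)]
    exact h.swap.rho_f1 N
  have c4 : ap t e₂ = (-N.1 1 0) • f₁ + N.1 0 0 • e₂ := by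
    rw [key e₂ (by simp)]
    exact h.swap.rho_f2 N
  obtain ⟨p1, p2, p3, p4, p5, p6, p7, p8, p9, p10, p11, p12, p13, p14, p15, p16⟩ := h.pols
  have htt : ∀ v, ap t (ap t v) = v := fun v => by rw [← ap_mul, ht, ap_one]
  have hNN : N * N = 1 := by
    have d1 := htt e₁
    rw [c1, ap_add, ap_smul, ap_smul, c1, c2] at d1
    have d2 := htt f₂
    rw [c2, ap_add, ap_smul, ap_smul, c1, c2] at d2
    have a1 := congrArg (polar Q f₁) d1
    have a2 := congrArg (polar Q e₂) d1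
    have a3 := congrArg (polar Q f₁) d2
    have a4 := congrArg (polar Q e₂) d2
    simp only [polar_add_right, polar_smul_right, smul_eq_mul, p1, p2, p3, p4, p5, p6, p7, p8, p9,
      p10, p11, p12, p13, p14, p15, p16, mul_zero, mul_one, zero_add, add_zero] at a1 a2 a3 a4
    apply Subtype.ext
    change N.1 * N.1 = 1
    ext i j
    fin_cases i <;> fin_cases j
    · simp only [Fin.zero_eta, Matrix.mul_apply, Fin.sum_univ_two, Matrix.one_apply_eq]
      linear_combination a1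
    · simp only [Fin.zero_eta, Fin.mk_one, Matrix.mul_apply, Fin.sum_univ_two, ne_eq, zero_ne_one, not_false_eq_true,
        Matrix.one_apply_ne]
      linear_combination a3
    · simp only [Fin.zero_eta, Fin.mk_one, Matrix.mul_apply, Fin.sum_univ_two, ne_eq, one_ne_zero, not_false_eq_true,
        Matrix.one_apply_ne]
      linear_combination a2
    · simp only [Fin.mk_one, Matrix.mul_apply, Fin.sum_univ_two, Matrix.one_apply_eq]
      linear_combination a4
  rcases sq_one_SL h2 hNN with rfl | rfl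
  · exfalso
    refine not_trivial h2 hG hN hm h ht hr ?_ ?_ ?_ ?_
    · rw [c1]; simp
    · rw [c3]; simp
    · rw [c4]; simp
    · rw [c2]; simp
  · have hz := Vm_frame h2 h (rhoE_neg_e1 h) (rhoE_neg_f1 h) (rhoE_neg_e2 h) (rhoE_neg_f2 h)
      (fun w k1 k2 k3 k4 => rhoE_fix h (-1) k1 k2 k3 k4)
    have hzz : h.rhoE (-1) * h.rhoE (-1) = 1 := by
      rw [← map_mul, neg_one_mul, neg_neg, map_one]
    apply eq_of_Vm h2 hG.nondeg ht hzz
    rw [hz]
    symm
    apply Submodule.eq_of_le_of_finrank_eq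
    · intro v hv
      rw [mem_Wsp] at hv
      obtain ⟨a, b, c, d, rfl⟩ := hv
      rw [mem_Vm]
      have d1 : ap t e₁ = -e₁ := by rw [c1]; simp
      have d2 : ap t f₁ = -f₁ := by rw [c3]; simp
      have d3 : ap t e₂ = -e₂ := by rw [c4]; simp
      have d4 : ap t f₂ = -f₂ := by rw [c2]; simp
      simp only [ap_add, ap_smul, d1, d2, d3, d4]
      module
    · rw [finrank_Wsp h, hr]

end eight

end Cfsg.Agent.H893.IFE
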