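import Cfsg.Agent.H893.IF.EightM
import Cfsg.Agent.H215.IFM.Eight
import Cfsg.Agent.H325.IF.Inv4

/-!
# S5719, `Ω₈⁻(q)`, `q` odd: assembly in `E Q` (helper893)

* `hmin` : the form of "minus type" needed for the model of `Ω₄⁻`;
* `eightM_E` : no counterexample in `Ω₈⁻(q)`, `A` of even order, from the model, the centraliser lemma, CLAIM 0 and the
  class size.
-/

set_option autoImplicit false
set_option linter.unusedSectionVars false
set_option linter.unusedVariables false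
set_option linter.unusedSimpArgs false

namespace Cfsg.Agent.H893.IFE

open QuadraticMap Module Cfsg.Agent.LieClassical Cfsg.Agent.LieClassical.OrthCore Cfsg.Agent.LieClassical.OrthTrans
  Cfsg.Agent.LieClassical.OrthSimple Cfsg.Agent.H989.Gs.Gen Cfsg.Agent.H989.Fx Cfsg.Agent.H325.IF
  Cfsg.Agent.H160.QSpin Cfsg.Agent.H160.QDisc
open Cfsg.Agent.UGT.U2.FOne.Orth (Four)
open Cfsg.Agent.H209.Fxy
open Matrix (SpecialLinearGroup)

universe u v

variable {F : Type u} [Field F] {V : Type v} [AddCommGroup V] [Module F V] {Q : QuadraticForm F V}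
  {e₁ f₁ e₂ f₂ : V}

section eight

variable [Finite F] [FiniteDimensional F V] (h2 : (2 : F) ≠ 0) (hG : Good Q) (hN : finrank F V = 8)
  (hm : ∀ g : ↥(E Q), ¬ ∀ v, ap g v = -v)

include h2 hG hN hm

/-- a space of minus type of dimension eight has no four orthogonal hyperbolic pairs -/
theorem hmin (h : Four Q e₁ f₁ e₂ f₂) {e f : V} (hef : Hyp Q e f) (a1 : polar Q e₁ e = 0) (a2 : polar Q f₁ e = 0)
    (a3 : polar Q e₂ e = 0) (a4 : polar Q f₂ e = 0) (b1 : polar Q e₁ f = 0) (b2 : polar Q f₁ f = 0)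
    (b3 : polar Q e₂ f = 0) (b4 : polar Q f₂ f = 0) {v : V} (c1 : polar Q e₁ v = 0) (c2 : polar Q f₁ v = 0)
    (c3 : polar Q e₂ v = 0) (c4 : polar Q f₂ v = 0) (c5 : polar Q e v = 0) (c6 : polar Q f v = 0) (hv : Q v = 0) :
    v = 0 := by
  by_contra hv0
  obtain ⟨p1, p2, p3, p4, p5, p6, p7, p8, p9, p10, p11, p12, p13, p14, p15, p16⟩ := h.pols
  obtain ⟨y, hy⟩ := hG.nondeg.exists_polar_eq hv0 1
  -- the projection of `y`
  obtain ⟨y', q1, q2, q3, q4, q5, q6, q7⟩ : ∃ y', polar Q e₁ y' = 0 ∧ polar Q f₁ y' = 0 ∧ polar Q e₂ y' = 0 ∧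
      polar Q f₂ y' = 0 ∧ polar Q e y' = 0 ∧ polar Q f y' = 0 ∧ polar Q v y' = 1 := by
    refine ⟨y - (polar Q f₁ y • e₁ + polar Q e₁ y • f₁ + polar Q f₂ y • e₂ + polar Q e₂ y • f₂ + polar Q f y • e +
      polar Q e y • f), ?_, ?_, ?_, ?_, ?_, ?_, ?_⟩
    · simp only [polar_sub_right, polar_add_right, polar_smul_right, smul_eq_mul, p1, p5, p9, p11, a1, b1]
      ring
    · simp only [polar_sub_right, polar_add_right, polar_smul_right, smul_eq_mul, p2, p6, p13, p15, a2, b2]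
      ring
    · simp only [polar_sub_right, polar_add_right, polar_smul_right, smul_eq_mul, p3, p7, p10, p14, a3, b3]
      ring
    · simp only [polar_sub_right, polar_add_right, polar_smul_right, smul_eq_mul, p4, p8, p12, p16, a4, b4]
      ring
    · rw [polar_comm] at a1 a2 a3 a4
      simp only [polar_sub_right, polar_add_right, polar_smul_right, smul_eq_mul, a1, a2, a3, a4, hef.pair,
        hef.polar_left]
      ring
    · rw [polar_comm] at b1 b2 b3 b4
      simp only [polar_sub_right, polar_add_right, polar_smul_right, smul_eq_mul, b1, b2, b3, b4, hef.pair',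
        hef.polar_right]
      ring
    · rw [polar_comm] at c1 c2 c3 c4 c5 c6
      simp only [polar_sub_right, polar_add_right, polar_smul_right, smul_eq_mul, c1, c2, c3, c4, c5, c6, hy]
      ring
  set w := y' - Q y' • v with hw
  have hvw : Hyp Q v w := by
    refine ⟨hv, ?_, ?_⟩
    · rw [hw, sub_eq_add_neg, ← neg_smul, Q_add, QuadraticMap.map_smul, hv, smul_zero, add_zero, polar_smul_right,
        polar_comm Q y' v, q7, smul_eq_mul, mul_one, add_neg_cancel]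
    · rw [hw, polar_sub_right, polar_smul_right, polar_self_of_sing hv, smul_zero, sub_zero, q7]
  have wp : ∀ x : V, polar Q x y' = 0 → polar Q x v = 0 → polar Q x w = 0 := by
    intro x hx hxv
    rw [hw, polar_sub_right, polar_smul_right, hx, hxv, smul_zero, sub_zero]
  have k : Four Q e f v w := ⟨hef, hvw, c5, wp e q5 c5, c6, wp f q6 c6⟩
  have hkk : k.rhoE (-1) * k.rhoE (-1) = 1 := by
    rw [← map_mul, neg_one_mul, neg_neg, map_one]
  have hz := Vm_frame h2 k (rhoE_neg_e1 k) (rhoE_neg_f1 k) (rhoE_neg_e2 k) (rhoE_neg_f2 k)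
    (fun w k1 k2 k3 k4 => rhoE_fix k (-1) k1 k2 k3 k4)
  refine not_trivial h2 hG hN hm h hkk (by rw [hz, finrank_Wsp k]) ?_ ?_ ?_ ?_
  · exact rhoE_fix k (-1) (by rw [polar_comm]; exact a1) (by rw [polar_comm]; exact b1)
      (by rw [polar_comm]; exact c1) (by rw [polar_comm]; exact wp _ q1 c1)
  · exact rhoE_fix k (-1) (by rw [polar_comm]; exact a2) (by rw [polar_comm]; exact b2)
      (by rw [polar_comm]; exact c2) (by rw [polar_comm]; exact wp _ q2 c2)
  · exact rhoE_fix k (-1) (by rw [polar_comm]; exact a3) (by rw [polar_comm]; exact b3)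
      (by rw [polar_comm]; exact c3) (by rw [polar_comm]; exact wp _ q3 c3)
  · exact rhoE_fix k (-1) (by rw [polar_comm]; exact a4) (by rw [polar_comm]; exact b4)
      (by rw [polar_comm]; exact c4) (by rw [polar_comm]; exact wp _ q4 c4)

end eight

theorem exists_sq_neg_one (F : Type u) [Field F] : ∃ a : SpecialLinearGroup (Fin 2) F, a * a = -1 := by
  refine ⟨⟨!![0, 1; -1, 0], by simp [Matrix.det_fin_two]⟩, ?_⟩
  apply Subtype.ext
  change !![(0 : F), 1; -1, 0] * !![(0 : F), 1; -1, 0] = _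
  ext i j
  fin_cases i <;> fin_cases j <;> simp [Matrix.mul_apply, Fin.sum_univ_two]

theorem orderOf_eq_two_iff' {G : Type*} [Group G] {t : G} : orderOf t = 2 ↔ t * t = 1 ∧ t ≠ 1 := by
  constructor
  · intro h
    refine ⟨?_, ?_⟩
    · rw [← pow_two, ← h, pow_orderOf_eq_one]
    · rintro rfl
      rw [orderOf_one] at h
      omega
  · rintro ⟨h1, h2⟩
    exact orderOf_eq_prime (by rw [pow_two, h1]) h2

/-- **`Ω₈⁻(q)`, `q` odd** -/
theorem eightM_E [Fintype F] (hodd : Odd (Fintype.card F)) [FiniteDimensional F V] [Finite V] (h2 : (2 : F) ≠ 0) (hG : Good Q)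
    (hN : finrank F V = 8) (hm : ∀ g : ↥(E Q), ¬ ∀ v, ap g v = -v) [Finite ↥(E Q)] [IsSimpleGroup ↥(E Q)]
    {A : Subgroup ↥(E Q)} {Γ : Subgroup (MulAut ↥(E Q))} (h : IF A Γ) (hA : ∃ t ∈ A, orderOf t = 2)
    (claim0 : ∀ t ∈ A, t * t = 1 → (finrank F (Vm t) = 2 ∨ finrank F (Vm t) = 6) → False)
    (hmodel : ∀ {e₁ f₁ e₂ f₂ : V}, Four Q e₁ f₁ e₂ f₂ → ∃ (K : Type u) (_ : Field K) (_ : Fintype K),
      Fintype.card K = Fintype.card F ^ 2 ∧ ∃ ψ : SpecialLinearGroup (Fin 2) K →* ↥(E Q),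
        (∀ y, ap (ψ y) e₁ = e₁ ∧ ap (ψ y) f₁ = f₁ ∧ ap (ψ y) e₂ = e₂ ∧ ap (ψ y) f₂ = f₂) ∧ ψ (-1) = 1 ∧
        ∀ y, ψ y = 1 → y = 1 ∨ y = -1)
    (hcent : ∀ {e₁ f₁ e₂ f₂ : V} (h : Four Q e₁ f₁ e₂ f₂) (g : ↥(E Q)), (∀ M, g * h.rhoE M = h.rhoE M * g) →
      ∃ N, ∀ w ∈ ({e₁, f₁, e₂, f₂} : Set V), ap ((h.swap.rhoE N)⁻¹ * g) w = w)
    (hind : ∀ z : ↥(E Q), Fund Q z → (Subgroup.centralizer ({z} : Set ↥(E Q))).index ≤ Fintype.card F ^ 16) :
    False := by
  -- involutions of `A` are fundamental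
  have hF : ∀ t ∈ A, orderOf t = 2 → t * t = 1 ∧ finrank F (Vm t) = 4 ∧ Fund Q t := by
    intro t ht ho
    obtain ⟨h3, h4⟩ := orderOf_eq_two_iff'.1 ho
    rcases rank_cases h2 hG hN hm h3 h4 with h5 | h5 | h5
    · exact (claim0 t ht h3 (Or.inl h5)).elim
    · exact (claim0 t ht h3 (Or.inr h5)).elim
    · exact ⟨h3, h5.1, h5.2⟩
  obtain ⟨z, hzA, hzo⟩ := hA
  obtain ⟨hzz, hzr, hzF⟩ := hF z hzA hzo
  obtain ⟨e₁, f₁, e₂, f₂, h4, z1, z2, z3, z4, z5⟩ := hzF
  have hzF : Fund Q z := ⟨e₁, f₁, e₂, f₂, h4, z1, z2, z3, z4, z5⟩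
  have hzρ : z = h4.rhoE (-1) := eq_rhoE_neg h4 z1 z2 z3 z4 z5
  have hzρ' : z = h4.swap.rhoE (-1) := eq_rhoE_neg h4.swap z1 z2 z4 z3 (fun v k1 k2 k3 k4 => z5 v k1 k2 k4 k3)
  have hna : ∃ a b : ↥(E Q), a * b ≠ b * a := by
    by_contra hcon
    push Not at hcon
    have hn : A.Normal := ⟨fun a ha g => by rw [hcon g a, mul_inv_cancel_right]; exact ha⟩
    rcases hn.eq_bot_or_eq_top with h7 | h7
    · exact h.ne_bot h7
    · exact h.ne_top h7
  obtain ⟨K, _, _, hK, ψ, hψ, hψ1, hψk⟩ := hmodel h4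
  -- the homomorphism
  let φ₁ : SpecialLinearGroup (Fin 2) F × SpecialLinearGroup (Fin 2) F →* ↥(E Q) :=
    MonoidHom.noncommCoprod h4.rhoE h4.swap.rhoE (fun M N => swap_comm h4 M N)
  have hφ₁ : ∀ x, φ₁ x = h4.rhoE x.1 * h4.swap.rhoE x.2 := fun x => rfl
  have c1 : ∀ M y, h4.rhoE M * ψ y = ψ y * h4.rhoE M := fun M y =>
    (comm_rhoE h4 (hψ y).1 (hψ y).2.1 (hψ y).2.2.1 (hψ y).2.2.2 M).symm
  have c2 : ∀ M y, h4.swap.rhoE M * ψ y = ψ y * h4.swap.rhoE M := fun M y =>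
    (comm_rhoE h4.swap (hψ y).1 (hψ y).2.1 (hψ y).2.2.2 (hψ y).2.2.1 M).symm
  let φ : (SpecialLinearGroup (Fin 2) F × SpecialLinearGroup (Fin 2) F) × SpecialLinearGroup (Fin 2) K →* ↥(E Q) :=
    MonoidHom.noncommCoprod φ₁ ψ (fun x y => by
      show φ₁ x * ψ y = ψ y * φ₁ x
      rw [hφ₁, mul_assoc, c2, ← mul_assoc, c1, mul_assoc])
  have hφ : ∀ x, φ x = h4.rhoE x.1.1 * h4.swap.rhoE x.1.2 * ψ x.2 := fun x => rfl
  have hφa : ∀ a, φ ((a, 1), 1) = h4.rhoE a := fun a => by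
    rw [hφ]
    simp only [map_one, mul_one]
  have hφb : ∀ a, φ ((1, a), 1) = h4.swap.rhoE a := fun a => by
    rw [hφ]
    simp only [map_one, mul_one, one_mul]
  have hφc : ∀ y, φ ((1, 1), y) = ψ y := fun y => by
    rw [hφ]
    simp only [map_one, mul_one, one_mul]
  -- commuting with `ρ(-1)`
  have hcz : ∀ x, φ x * z = z * φ x := by
    intro x
    have d1 : h4.rhoE x.1.1 * z = z * h4.rhoE x.1.1 := by
      rw [hzρ, ← map_mul, ← map_mul, neg_one_mul, mul_neg_one]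
    have d2 : h4.swap.rhoE x.1.2 * z = z * h4.swap.rhoE x.1.2 := by
      rw [hzρ', ← map_mul, ← map_mul, neg_one_mul, mul_neg_one]
    have d3 : ψ x.2 * z = z * ψ x.2 := by rw [hzρ]; exact (c1 _ _).symm
    rw [hφ, mul_assoc, d3, ← mul_assoc, mul_assoc (h4.rhoE x.1.1), d2, ← mul_assoc, d1, mul_assoc, mul_assoc,
      mul_assoc]
  refine Cfsg.Agent.H215.IFM.eight_minus h hna hodd hK φ hzA hzo hcz ?_ ?_ ?_ ?_ ?_ ?_ (hind z hzF)
  · rw [hφc]
    exact hψ1
  · -- elements of order 4 of `SL₂(q²)`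
    intro y hy hmem
    rw [hφc] at hmem
    have h5 : ψ y * ψ y = 1 := by rw [← map_mul, hy, hψ1]
    have hK2 : (-1 : SpecialLinearGroup (Fin 2) K) ≠ 1 := by
      intro h6
      have h7 := congrArg (fun M : SpecialLinearGroup (Fin 2) K => M.1 0 0) h6
      have h8 : (-1 : K) = 1 := by simpa using h7
      have hKo : Odd (Fintype.card K) := by rw [hK]; exact hodd.pow
      exact Cfsg.Agent.H215.IFM.two_ne hKo (by linear_combination -h8)
    have h6 : ψ y ≠ 1 := by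
      intro h7
      rcases hψk y h7 with rfl | rfl
      · rw [mul_one] at hy
        exact hK2 hy.symm
      · rw [neg_one_mul, neg_neg] at hy
        exact hK2 hy.symm
    obtain ⟨-, h8, -⟩ := hF _ hmem (orderOf_eq_two_iff'.2 ⟨h5, h6⟩)
    obtain ⟨k1, k2, k3, k4⟩ := hψ y
    exact not_trivial h2 hG hN hm h4 h5 h8 k1 k2 k3 k4
  · -- two elements of order 4
    obtain ⟨a, ha⟩ := exists_sq_neg_one F
    refine ⟨a, a, fun hmem => ?_⟩
    have hx : φ ((a, a), 1) = h4.rhoE a * h4.swap.rhoE a := by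
      rw [hφ]
      simp only [map_one, mul_one]
    rw [hx] at hmem
    set x := h4.rhoE a * h4.swap.rhoE a with hxdef
    have hne : (-1 : SpecialLinearGroup (Fin 2) F) ≠ 1 := by
      intro h6
      have h7 := congrArg (fun M : SpecialLinearGroup (Fin 2) F => M.1 0 0) h6
      have h8 : (-1 : F) = 1 := by simpa using h7
      exact h2 (by linear_combination -h8)
    have hxx : x * x = 1 := by
      have e1 : x * x = h4.rhoE (a * a) * h4.swap.rhoE (a * a) := by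
        rw [hxdef, map_mul, map_mul, mul_assoc, ← mul_assoc (h4.swap.rhoE a), ← swap_comm h4 a a]
        simp only [mul_assoc]
      rw [e1, ha, ← hzρ, ← hzρ', hzz]
    have hx1 : x ≠ 1 := by
      intro h6
      have h7 : h4.rhoE a = h4.swap.rhoE a⁻¹ := by
        rw [map_inv]
        exact eq_inv_of_mul_eq_one_left h6
      have h8 := scalar_of_eq h4 h7
      exact hne (ha.symm.trans h8)
    obtain ⟨-, h8, -⟩ := hF _ hmem (orderOf_eq_two_iff'.2 ⟨hxx, hx1⟩)
    -- the `-1`-space lies in the space of the frame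
    have hfixx : ∀ w : V, polar Q e₁ w = 0 → polar Q f₁ w = 0 → polar Q e₂ w = 0 → polar Q f₂ w = 0 → w ∈ Vp x := by
      intro w g1 g2 g3 g4
      rw [mem_Vp, hxdef, ap_mul, rhoE_fix h4.swap a g1 g2 g4 g3, rhoE_fix h4 a g1 g2 g3 g4]
    have h9 : Vm x ≤ Wsp e₁ f₁ e₂ f₂ := by
      intro v hv
      rw [mem_Wsp]
      obtain ⟨v', ⟨g1, g2, g3, g4⟩, a', b', c', d', hv'⟩ := exists_four_comb h4 v
      have hvx : ∀ w : V, polar Q v' w = 0 := by
        intro w
        obtain ⟨w', ⟨k1, k2, k3, k4⟩, r1, r2, r3, r4, hw'⟩ := exists_four_comb h4 w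
        have u1 : polar Q v w' = 0 := polar_Vm_Vp h2 hv (hfixx w' k1 k2 k3 k4)
        rw [polar_comm] at g1 g2 g3 g4
        rw [hv'] at u1
        simp only [polar_add_left, polar_smul_left, k1, k2, k3, k4, smul_zero, add_zero] at u1
        rw [hw']
        simp only [polar_add_right, polar_smul_right, g1, g2, g3, g4, smul_zero, add_zero, u1]
      have h0 : v' = 0 := hG.nondeg v' hvx
      exact ⟨a', b', c', d', by rw [hv', h0, zero_add]⟩
    have h10 : Vm x = Vm z := by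
      rw [Vm_frame h2 h4 z1 z2 z3 z4 z5]
      exact Submodule.eq_of_le_of_finrank_eq h9 (by rw [h8, finrank_Wsp h4])
    have h11 : x = z := eq_of_Vm h2 hG.nondeg hxx hzz h10
    have h12 : h4.rhoE (a⁻¹ * -1) = h4.swap.rhoE a := by
      rw [map_mul, map_inv, ← hzρ, ← h11, hxdef, inv_mul_cancel_left]
    have h13 := scalar_of_eq h4 h12
    rw [mul_neg_one, neg_mul_neg] at h13
    have h14 : a * a = 1 := by
      have h15 : (a * a)⁻¹ = 1 := by rw [mul_inv_rev]; exact h13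
      exact inv_eq_one.1 h15
    exact hne (ha.symm.trans h14)
  · intro t ht ho
    exact exists_conj_of_fund h2 hG hzF (hF t ht ho).2.2
  · intro t ht ho hcomm
    obtain ⟨k1, k2, k3⟩ := hF t ht ho
    obtain ⟨N, hN'⟩ := hcent h4 t (fun M => by rw [← hφa]; exact (hcomm M).symm)
    rw [hzρ]
    exact eq_of_swap h2 hG hN hm h4 k1 k2 N hN'
  · intro t ht ho hcomm
    obtain ⟨k1, k2, k3⟩ := hF t ht ho
    obtain ⟨N, hN'⟩ := hcent h4.swap t (fun M => by rw [← hφb]; exact (hcomm M).symm)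
    rw [hzρ']
    refine eq_of_swap h2 hG hN hm h4.swap k1 k2 N ?_
    exact hN'

end Cfsg.Agent.H893.IFE
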