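import Cfsg.Agent.H893.IF.EightM2

/-!
# S5719, `PΩ₈⁺(q)`, `q` odd: assembly (helper893)

* `lift_cases` : the lift of an involution;
* `eightP_of` : no counterexample in `PΩ₈⁺(q)`, `A` of even order, from helper709's abstract theorem, CLAIM 0, the class
  (II), the model and the class size.
-/

set_option autoImplicit false
set_option linter.unusedSectionVars false
set_option linter.unusedVariables false

namespace Cfsg.Agent.H893.IFE

open QuadraticMap Module Cfsg.Agent.LieClassical Cfsg.Agent.LieClassical.OrthCore Cfsg.Agent.LieClassical.OrthTrans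
  Cfsg.Agent.LieClassical.OrthSimple Cfsg.Agent.H989.Gs.Gen Cfsg.Agent.H989.Fx Cfsg.Agent.H325.IF
open Cfsg.Agent.UGT.U2.FOne.Orth (Four)
open Cfsg.Agent.H209.Fxy
open Matrix (SpecialLinearGroup)

universe u v w

variable {F : Type u} [Field F] {V : Type v} [AddCommGroup V] [Module F V] {Q : QuadraticForm F V}

section lift

variable {T : Type w} [Group T] (π : ↥(E Q) →* T) (hπ : Function.Surjective π)
  (hker : ∀ g, π g = 1 ↔ g = 1 ∨ ∀ v, ap g v = -v)

include hπ hker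

/-- the lift of an involution, dimension 8 -/
theorem lift_cases [Finite F] [FiniteDimensional F V] (h2 : (2 : F) ≠ 0) (hG : Good Q) (hN : finrank F V = 8) {t : T}
    (ht : orderOf t = 2) : ∃ g : ↥(E Q), π g = t ∧ ((g * g = 1 ∧ (finrank F (Vm g) = 2 ∨ finrank F (Vm g) = 6)) ∨
      Fund Q g ∨ ∀ v, ap g (ap g v) = -v) := by
  obtain ⟨g, rfl⟩ := hπ t
  obtain ⟨h3, h4⟩ := orderOf_eq_two_iff'.1 ht
  refine ⟨g, rfl, ?_⟩
  rw [← map_mul] at h3
  rcases (hker _).1 h3 with h5 | h5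
  · obtain ⟨⟨k, hk⟩, k2, k3⟩ := finrank_lift π hker h2 hG h5 h4
    rw [hN] at k3
    have h7 : finrank F (Vm g) = 2 ∨ finrank F (Vm g) = 6 ∨ finrank F (Vm g) = 4 := by omega
    rcases h7 with h7 | h7 | h7
    · exact Or.inl ⟨h5, Or.inl h7⟩
    · exact Or.inl ⟨h5, Or.inr h7⟩
    · exact Or.inr (Or.inl (fund_of_finrank h2 hG h5 h7))
  · exact Or.inr (Or.inr fun v => by rw [← ap_mul]; exact h5 v)

end lift

/-- the model of the four long `SL₂` of a fundamental involution -/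
structure Model8 {T : Type w} [Group T] (π : ↥(E Q) →* T) (z : ↥(E Q))
    (f : Fin 4 → (SpecialLinearGroup (Fin 2) F →* T)) : Prop where
  comm : ∀ i j, i ≠ j → ∀ s t, Commute (f i s) (f j t)
  neg : ∀ i, f i (-1) = π z
  sup : ∀ i j, i ≠ j → ∀ s t, s * s = -1 → t * t = -1 → ∃ g : ↥(E Q), π g = f i s * f j t ∧
    ((g * g = 1 ∧ finrank F (Vm g) = 2) ∨ ∀ v, ap g (ap g v) = -v)
  cent : ∀ i (g : ↥(E Q)), Fund Q g → (∀ a, π g * f i a = f i a * π g) → π g = π z

/-- the form of helper709's theorem -/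
def EightPlus (T : Type w) [Group T] (F : Type u) [Field F] [Fintype F] : Prop :=
  ∀ {A : Subgroup T} {Γ : Subgroup (MulAut T)}, IF A Γ → (∃ a b : T, a * b ≠ b * a) →
    ∀ (f : Fin 4 → (SpecialLinearGroup (Fin 2) F →* T)), (∀ i j, i ≠ j → ∀ s t, Commute (f i s) (f j t)) →
    ∀ {z : T}, z ∈ A → orderOf z = 2 → (∀ i, f i (-1) = z) →
    (∀ i j, i ≠ j → ∀ s t, s * s = -1 → t * t = -1 → f i s * f j t ∉ A) →
    (∀ t ∈ A, orderOf t = 2 → ∃ x : T, x * z * x⁻¹ = t) →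
    (∀ i, ∀ t ∈ A, orderOf t = 2 → (∀ a, f i a * t = t * f i a) → t = z) →
    4 * (Subgroup.centralizer ({z} : Set T)).index ≤
      Fintype.card F ^ 8 * (Fintype.card F ^ 2 + 1) ^ 2 * (Fintype.card F ^ 4 + Fintype.card F ^ 2 + 1) → False

theorem eightP_of [Fintype F] [FiniteDimensional F V] (h2 : (2 : F) ≠ 0) (hG : Good Q) (hN : finrank F V = 8)
    {T : Type w} [Group T] [Finite T] [IsSimpleGroup T] (π : ↥(E Q) →* T) (hπ : Function.Surjective π)
    (hker : ∀ g, π g = 1 ↔ g = 1 ∨ ∀ v, ap g v = -v) (h709 : EightPlus T F)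
    {A : Subgroup T} {Γ : Subgroup (MulAut T)} (h : IF A Γ) (hA : ∃ t ∈ A, orderOf t = 2)
    (c0 : ∀ g : ↥(E Q), π g ∈ A → g * g = 1 → (finrank F (Vm g) = 2 ∨ finrank F (Vm g) = 6) → False)
    (c1 : ∀ g : ↥(E Q), π g ∈ A → (∀ v, ap g (ap g v) = -v) → False)
    (hmod : ∀ z : ↥(E Q), Fund Q z → ∃ f, Model8 π z f)
    (hind : ∀ z : ↥(E Q), Fund Q z → 4 * (Subgroup.centralizer ({π z} : Set T)).index ≤
      Fintype.card F ^ 8 * (Fintype.card F ^ 2 + 1) ^ 2 * (Fintype.card F ^ 4 + Fintype.card F ^ 2 + 1)) : False := by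
  -- involutions of `A` are images of fundamental ones
  have hF : ∀ t ∈ A, orderOf t = 2 → ∃ g : ↥(E Q), π g = t ∧ Fund Q g := by
    intro t ht ho
    obtain ⟨g, hg, hc⟩ := lift_cases π hπ hker h2 hG hN ho
    rcases hc with ⟨k1, k2⟩ | k | k
    · exact (c0 g (by rw [hg]; exact ht) k1 k2).elim
    · exact ⟨g, hg, k⟩
    · exact (c1 g (by rw [hg]; exact ht) k).elim
  obtain ⟨_, htA, ho⟩ := hA
  obtain ⟨z, rfl, hz⟩ := hF _ htA ho
  have hna : ∃ a b : T, a * b ≠ b * a := by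
    by_contra hcon
    push Not at hcon
    have hn : A.Normal := ⟨fun a ha g => by rw [hcon g a, mul_inv_cancel_right]; exact ha⟩
    rcases hn.eq_bot_or_eq_top with h7 | h7
    · exact h.ne_bot h7
    · exact h.ne_top h7
  obtain ⟨f, hf⟩ := hmod z hz
  refine h709 h hna f hf.comm htA ho hf.neg ?_ ?_ ?_ (hind z hz)
  · intro i j hij s t hs ht hmem
    obtain ⟨g, hg, hc⟩ := hf.sup i j hij s t hs ht
    rw [← hg] at hmem
    rcases hc with ⟨k1, k2⟩ | k
    · exact c0 g hmem k1 (Or.inl k2)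
    · exact c1 g hmem k
  · intro t ht ho'
    obtain ⟨g, rfl, hg⟩ := hF t ht ho'
    obtain ⟨x, hx⟩ := exists_conj_of_fund h2 hG hz hg
    exact ⟨π x, by rw [← map_inv, ← map_mul, ← map_mul, hx]⟩
  · intro i t ht ho' hcomm
    obtain ⟨g, rfl, hg⟩ := hF t ht ho'
    exact hf.cent i g hg fun a => (hcomm a).symm

end Cfsg.Agent.H893.IFE
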